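import Mathlib
import Cfsg.Agent.Solv.Core
import Cfsg.Agent.H76.PSolvable

/-!
# `O_{p'}(V)` and `O_{p',p}(V)` as subgroups of the ambient group
-/

set_option autoImplicit false

namespace Cfsg.Agent.H31.PP

open Subgroup Cfsg

universe u

variable {G : Type u} [Group G]

/-- `O_{p'}(V)` inside `G`. -/
def OO (p : ℕ) (V : Subgroup G) : Subgroup G := (pPrimeCore p V).map V.subtype

/-- `O_{p',p}(V)` inside `G`. -/
def OP (p : ℕ) (V : Subgroup G) : Subgroup G :=
  ((pCore p (V ⧸ pPrimeCore p V)).comap (QuotientGroup.mk' (pPrimeCore p V))).map V.subtype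

/-- `S` is a Sylow `p`-subgroup of the subgroup `V`. -/
structure Syl (p : ℕ) (S V : Subgroup G) : Prop where
  le : S ≤ V
  pg : IsPGroup p S
  ndvd : ¬ p ∣ S.relIndex V

/-- `O_{p'}(C_G(a))`. -/
def th (p : ℕ) (a : G) : Subgroup G := OO p (centralizer ({a} : Set G))

/-- the subgroup generated by the `O_{p'}(C_G(a))`, `1 ≠ a ∈ A`. -/
def WW (p : ℕ) (A : Subgroup G) : Subgroup G := closure {e : G | ∃ a ∈ A, a ≠ 1 ∧ e ∈ th p a}

/-- the minimal situation. -/
structure MinS (p : ℕ) (G : Type u) [Group G] : Prop where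
  simp : IsSimpleGroup G
  nps : ¬ IsPSolvable p G
  sub : ∀ H : Subgroup G, H ≠ ⊤ → IsPSolvable p H
  pair : ∀ P Q : Sylow p G, (P : Subgroup G) ⊔ (Q : Subgroup G) ≠ ⊤

end Cfsg.Agent.H31.PP
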