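import Cfsg.Agent.H31.PP.Defs

/-!
# Basic calculus of `O_{p'}(V)` and `O_{p',p}(V)`
-/

set_option autoImplicit false

namespace Cfsg.Agent.H31.PP

open Subgroup Cfsg

universe u

variable {G : Type u} [Group G]

theorem mem_OO {p : ℕ} {V : Subgroup G} {x : G} :
    x ∈ OO p V ↔ ∃ h : x ∈ V, (⟨x, h⟩ : V) ∈ pPrimeCore p V := by
  constructor
  · rintro ⟨y, hy, rfl⟩
    exact ⟨y.2, hy⟩
  · rintro ⟨h, hx⟩
    exact ⟨⟨x, h⟩, hx, rfl⟩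

theorem mem_OP {p : ℕ} {V : Subgroup G} {x : G} :
    x ∈ OP p V ↔ ∃ h : x ∈ V,
      (QuotientGroup.mk (⟨x, h⟩ : V) : V ⧸ pPrimeCore p V) ∈ pCore p (V ⧸ pPrimeCore p V) := by
  constructor
  · rintro ⟨y, hy, rfl⟩
    exact ⟨y.2, hy⟩
  · rintro ⟨h, hx⟩
    exact ⟨⟨x, h⟩, hx, rfl⟩

theorem OO_le {p : ℕ} (V : Subgroup G) : OO p V ≤ V := map_subtype_le _

theorem OP_le {p : ℕ} (V : Subgroup G) : OP p V ≤ V := map_subtype_le _

theorem OO_le_OP {p : ℕ} (V : Subgroup G) : OO p V ≤ OP p V := by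
  intro x hx
  obtain ⟨h, hx'⟩ := mem_OO.1 hx
  refine mem_OP.2 ⟨h, ?_⟩
  rw [(QuotientGroup.eq_one_iff _).2 hx']
  exact one_mem _

theorem OO_conj {p : ℕ} {V : Subgroup G} {v x : G} (hv : v ∈ V) (hx : x ∈ OO p V) :
    v * x * v⁻¹ ∈ OO p V := by
  obtain ⟨h, hx'⟩ := mem_OO.1 hx
  exact mem_OO.2 ⟨V.mul_mem (V.mul_mem hv h) (V.inv_mem hv),
    (inferInstance : (pPrimeCore p V).Normal).conj_mem _ hx' ⟨v, hv⟩⟩

theorem OP_conj {p : ℕ} {V : Subgroup G} {v x : G} (hv : v ∈ V) (hx : x ∈ OP p V) :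
    v * x * v⁻¹ ∈ OP p V := by
  obtain ⟨h, hx'⟩ := mem_OP.1 hx
  exact mem_OP.2 ⟨V.mul_mem (V.mul_mem hv h) (V.inv_mem hv),
    (inferInstance : (pCore p (V ⧸ pPrimeCore p V)).Normal).conj_mem _ hx'
      (QuotientGroup.mk (⟨v, hv⟩ : V))⟩

theorem OO_conj' {p : ℕ} {V : Subgroup G} {v x : G} (hv : v ∈ V) (hx : x ∈ OO p V) :
    v⁻¹ * x * v ∈ OO p V := by
  have := OO_conj (V.inv_mem hv) hx
  rwa [inv_inv] at this

theorem OP_conj' {p : ℕ} {V : Subgroup G} {v x : G} (hv : v ∈ V) (hx : x ∈ OP p V) :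
    v⁻¹ * x * v ∈ OP p V := by
  have := OP_conj (V.inv_mem hv) hx
  rwa [inv_inv] at this

variable [Finite G] {p : ℕ} [hp : Fact p.Prime]

omit hp in
theorem OO_coprime (V : Subgroup G) : (Nat.card (OO p V)).Coprime p := by
  rw [OO, card_map_of_injective V.subtype_injective]
  exact Solv.pPrimeCore_card_coprime p

omit hp in
theorem le_OO {V N : Subgroup G} (hN : N ≤ V) (hn : ∀ v ∈ V, ∀ x ∈ N, v * x * v⁻¹ ∈ N)
    (hc : (Nat.card N).Coprime p) : N ≤ OO p V := by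
  have h1 : (N.subgroupOf V).Normal := ⟨fun x hx v => by
    rw [mem_subgroupOf] at hx ⊢
    exact hn v v.2 x hx⟩
  have h2 : (Nat.card (N.subgroupOf V)).Coprime p := by
    rw [← card_map_of_injective V.subtype_injective, subgroupOf_map_subtype, inf_eq_left.mpr hN]
    exact hc
  intro x hx
  exact mem_OO.2 ⟨hN hx, Solv.le_pPrimeCore h1 h2 (mem_subgroupOf.2 hx)⟩

omit [Finite G] hp in
theorem pel_of_isPGroup {S : Subgroup G} (hS : IsPGroup p S) {x : G} (hx : x ∈ S) :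
    ∃ k : ℕ, x ^ p ^ k = 1 := by
  obtain ⟨k, hk⟩ := hS ⟨x, hx⟩
  exact ⟨k, congrArg Subtype.val hk⟩

omit [Finite G] hp in
theorem coprime_of_mem {K : Subgroup G} (hK : (Nat.card K).Coprime p) {x : G} (hx : x ∈ K) :
    (orderOf x).Coprime p :=
  Nat.Coprime.coprime_dvd_left (K.orderOf_dvd_natCard hx) hK

omit [Finite G] hp in
theorem eq_one_of_pel {x : G} (h : ∃ k : ℕ, x ^ p ^ k = 1) (hc : (orderOf x).Coprime p) :
    x = 1 := by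
  obtain ⟨k, hk⟩ := h
  rw [← orderOf_eq_one_iff]
  exact Nat.eq_one_of_dvd_coprimes (hc.pow_right k) dvd_rfl (orderOf_dvd_of_pow_eq_one hk)

omit [Finite G] hp in
theorem mem_OO_of_mem_OP {V : Subgroup G} {x : G} (hx : x ∈ OP p V) (ho : (orderOf x).Coprime p) :
    x ∈ OO p V := by
  obtain ⟨h, hx'⟩ := mem_OP.1 hx
  refine mem_OO.2 ⟨h, ?_⟩
  rw [← QuotientGroup.eq_one_iff]
  refine eq_one_of_pel (p := p) (pel_of_isPGroup (Solv.pCore_isPGroup p) hx') ?_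
  refine Nat.Coprime.coprime_dvd_left ?_ ho
  have h1 : orderOf (QuotientGroup.mk (⟨x, h⟩ : V) : V ⧸ pPrimeCore p V) ∣ orderOf (⟨x, h⟩ : V) :=
    orderOf_map_dvd (QuotientGroup.mk' (pPrimeCore p V)) (⟨x, h⟩ : V)
  have h2 : orderOf (⟨x, h⟩ : V) = orderOf x := (orderOf_injective V.subtype V.subtype_injective _).symm
  rwa [h2] at h1

theorem Syl.of_sylow (P : Sylow p G) {V : Subgroup G} (h : (P : Subgroup G) ≤ V) :
    Syl p (P : Subgroup G) V := by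
  refine ⟨h, P.isPGroup', ?_⟩
  intro hd
  have h1 := relIndex_mul_index h
  exact P.not_dvd_index (h1 ▸ dvd_mul_of_dvd_left hd _)

/-- the corresponding Sylow subgroup of the group `V`. -/
def Syl.sy {S V : Subgroup G} (h : Syl p S V) : Sylow p V :=
  (h.pg.comap_of_injective V.subtype V.subtype_injective).toSylow (P := S.subgroupOf V) h.ndvd

theorem Syl.sy_coe {S V : Subgroup G} (h : Syl p S V) :
    ((h.sy : Sylow p V) : Subgroup V) = S.subgroupOf V := rfl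

theorem Syl.mono {S V U : Subgroup G} (h : Syl p S V) (h1 : S ≤ U) (h2 : U ≤ V) : Syl p S U := by
  refine ⟨h1, h.pg, ?_⟩
  intro hd
  exact h.ndvd (dvd_trans hd (Dvd.intro _ (relIndex_mul_relIndex S U V h1 h2)))

theorem exists_syl {V T : Subgroup G} (hT : T ≤ V) (hTp : IsPGroup p T) :
    ∃ S, Syl p S V ∧ T ≤ S := by
  obtain ⟨Q, hQ⟩ := (hTp.comap_of_injective V.subtype V.subtype_injective).exists_le_sylow
  refine ⟨(Q : Subgroup V).map V.subtype, ⟨map_subtype_le _, Q.isPGroup'.map _, ?_⟩, ?_⟩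
  · have h1 : ((Q : Subgroup V).map V.subtype).relIndex V = (Q : Subgroup V).index := by
      rw [relIndex, subgroupOf, comap_map_eq_self_of_injective V.subtype_injective]
    rw [h1]
    exact Q.not_dvd_index
  · intro x hx
    exact ⟨⟨x, hT hx⟩, hQ hx, rfl⟩

omit hp in
theorem Syl.eq_one {S V : Subgroup G} (hS : Syl p S V) {x : G} (hx : x ∈ S) (hx' : x ∈ OO p V) :
    x = 1 :=
  eq_one_of_pel (pel_of_isPGroup hS.pg hx) (coprime_of_mem (OO_coprime V) hx')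

theorem exists_factor {V S : Subgroup G} (hS : Syl p S V) {y : G} (hy : y ∈ OP p V) :
    ∃ k ∈ OO p V, ∃ q ∈ S, q ∈ OP p V ∧ y = k * q := by
  obtain ⟨h, hy'⟩ := mem_OP.1 hy
  have h1 : pCore p (V ⧸ pPrimeCore p V) ≤
      (S.subgroupOf V).map (QuotientGroup.mk' (pPrimeCore p V)) := by
    have := Solv.pCore_le_sylow (G := V ⧸ pPrimeCore p V) (p := p)
      (hS.sy.mapSurjective (QuotientGroup.mk'_surjective (pPrimeCore p V)))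
    simpa [Syl.sy_coe] using this
  obtain ⟨q, hq, hqy⟩ := h1 hy'
  have hqy' : (QuotientGroup.mk q : V ⧸ pPrimeCore p V) = QuotientGroup.mk (⟨y, h⟩ : V) := hqy
  have hq' : (q : G) ∈ S := mem_subgroupOf.1 hq
  refine ⟨y * (q : G)⁻¹, mem_OO.2 ⟨V.mul_mem h (V.inv_mem q.2), ?_⟩, q, hq', mem_OP.2 ⟨q.2, ?_⟩, by group⟩
  · rw [← QuotientGroup.eq_one_iff]
    have : (⟨y * (q : G)⁻¹, V.mul_mem h (V.inv_mem q.2)⟩ : V) = ⟨y, h⟩ * q⁻¹ := rfl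
    rw [this, QuotientGroup.mk_mul, QuotientGroup.mk_inv, ← hqy', mul_inv_cancel]
  · have : (⟨(q : G), q.2⟩ : V) = q := rfl
    rw [this, hqy']
    exact hy'

theorem comm_mem_OO {V S : Subgroup G} (hS : Syl p S V) {x y : G} (hxV : x ∈ V)
    (hx : ∀ s ∈ S, x * s = s * x) (hy : y ∈ OP p V) : x * y * x⁻¹ * y⁻¹ ∈ OO p V := by
  obtain ⟨k, hk, q, hq, -, rfl⟩ := exists_factor hS hy
  have h1 : x * (k * q) * x⁻¹ * (k * q)⁻¹ = (x * k * x⁻¹) * k⁻¹ := by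
    have h2 : x * q * x⁻¹ = q := by rw [hx q hq]; group
    calc x * (k * q) * x⁻¹ * (k * q)⁻¹ = (x * k * x⁻¹) * (x * q * x⁻¹) * q⁻¹ * k⁻¹ := by group
      _ = (x * k * x⁻¹) * k⁻¹ := by rw [h2]; group
  rw [h1]
  exact mul_mem (OO_conj hxV hk) (inv_mem hk)

theorem mem_OP_of_comm {V S : Subgroup G} (hV : IsPSolvable p V) (hS : Syl p S V) {g : G}
    (hg : g ∈ V) (h : ∀ s ∈ S, s ∈ OP p V → g * s * g⁻¹ * s⁻¹ ∈ OO p V) : g ∈ OP p V := by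
  refine mem_OP.2 ⟨hg, ?_⟩
  have h1 := H76.centralizer_pCore_le (H76.isPSolvable_quotient (pPrimeCore p V) hV)
    (Solv.pPrimeCore_quotient_pPrimeCore p)
  apply h1
  rw [mem_centralizer_iff]
  intro y hy
  obtain ⟨v, rfl⟩ := QuotientGroup.mk_surjective y
  have hvO : (v : G) ∈ OP p V := mem_OP.2 ⟨v.2, hy⟩
  obtain ⟨k, hk, q, hq, hqO, hv⟩ := exists_factor hS hvO
  obtain ⟨hk1, hk2⟩ := mem_OO.1 hk
  obtain ⟨hc1, hc2⟩ := mem_OO.1 (h q hq hqO)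
  have hqV : q ∈ V := hS.le hq
  have h2 : (QuotientGroup.mk v : V ⧸ pPrimeCore p V) = QuotientGroup.mk (⟨q, hqV⟩ : V) := by
    have : v = (⟨k, hk1⟩ : V) * ⟨q, hqV⟩ := Subtype.ext hv
    rw [this, QuotientGroup.mk_mul, (QuotientGroup.eq_one_iff _).2 hk2, one_mul]
  rw [h2]
  have h3 : (QuotientGroup.mk ((⟨g, hg⟩ : V) * ⟨q, hqV⟩ * (⟨g, hg⟩ : V)⁻¹ * (⟨q, hqV⟩ : V)⁻¹) :
      V ⧸ pPrimeCore p V) = 1 := (QuotientGroup.eq_one_iff _).2 hc2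
  rw [QuotientGroup.mk_mul, QuotientGroup.mk_mul, QuotientGroup.mk_mul, QuotientGroup.mk_inv,
    QuotientGroup.mk_inv, mul_inv_eq_one, mul_inv_eq_iff_eq_mul] at h3
  exact h3.symm

theorem le_OO_of_inv {V S K : Subgroup G} (hV : IsPSolvable p V) (hS : Syl p S V) (hK : K ≤ V)
    (hKc : (Nat.card K).Coprime p) (hn : ∀ s ∈ S, ∀ x ∈ K, s * x * s⁻¹ ∈ K) : K ≤ OO p V := by
  intro k hk
  refine mem_OO_of_mem_OP ?_ (coprime_of_mem hKc hk)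
  refine mem_OP_of_comm hV hS (hK hk) ?_
  intro s hs hsO
  have h1 : k * s * k⁻¹ * s⁻¹ ∈ K := by
    have : k * s * k⁻¹ * s⁻¹ = k * (s * k⁻¹ * s⁻¹) := by group
    rw [this]
    exact mul_mem hk (hn s hs _ (inv_mem hk))
  have h2 : k * s * k⁻¹ * s⁻¹ ∈ OP p V := mul_mem (OP_conj (hK hk) hsO) (inv_mem hsO)
  exact mem_OO_of_mem_OP h2 (coprime_of_mem hKc h1)

/-- a `p`-subgroup of `O S` is conjugate under `O` into `S`. -/
theorem int_conj {X : Type u} [Group X] [Finite X] (S : Sylow p X) (A O : Subgroup X)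
    (hA : IsPGroup p A) [O.Normal] (h : A ≤ (S : Subgroup X) ⊔ O) :
    ∃ k ∈ O, ∀ a ∈ A, k * a * k⁻¹ ∈ (S : Subgroup X) := by
  set L : Subgroup X := (S : Subgroup X) ⊔ O with hL
  have hSL : (S : Subgroup X) ≤ L := le_sup_left
  obtain ⟨T, hT⟩ := (hA.comap_of_injective L.subtype L.subtype_injective).exists_le_sylow
  obtain ⟨g, hg⟩ := MulAction.exists_smul_eq L T (S.subtype hSL)
  have h1 : ∀ a ∈ A, (g : X) * a * (g : X)⁻¹ ∈ (S : Subgroup X) := by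
    intro a ha
    have h2 : (⟨a, h ha⟩ : L) ∈ (T : Subgroup L) := hT ha
    have h3 : g * (⟨a, h ha⟩ : L) * g⁻¹ ∈ ((g • T : Sylow p L) : Subgroup L) :=
      Subgroup.smul_mem_pointwise_smul _ (MulAut.conj g) _ h2
    rw [hg] at h3
    exact h3
  obtain ⟨s, hs, k, hk, hsk⟩ := mem_sup_of_normal_right.1 g.2
  refine ⟨k, hk, fun a ha => ?_⟩
  have h2 := h1 a ha
  rw [← hsk] at h2
  have h3 : k * a * k⁻¹ = s⁻¹ * (s * k * a * (s * k)⁻¹) * s := by group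
  rw [h3]
  exact mul_mem (mul_mem (inv_mem hs) h2) hs

theorem exists_conj_le {V S A : Subgroup G} (hS : Syl p S V) (hA : A ≤ OP p V)
    (hAp : IsPGroup p A) : ∃ k ∈ OO p V, ∀ a ∈ A, k * a * k⁻¹ ∈ S := by
  have h1 : A.subgroupOf V ≤ ((hS.sy : Sylow p V) : Subgroup V) ⊔ pPrimeCore p V := by
    intro a ha
    obtain ⟨k, hk, q, hq, -, h⟩ := exists_factor hS (hA (mem_subgroupOf.1 ha))
    obtain ⟨hk1, hk2⟩ := mem_OO.1 hk
    have hqV : q ∈ V := hS.le hq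
    have : a = (⟨k, hk1⟩ : V) * ⟨q, hqV⟩ := Subtype.ext h
    rw [this]
    exact mul_mem ((le_sup_right : pPrimeCore p V ≤ _) hk2)
      ((le_sup_left : ((hS.sy : Sylow p V) : Subgroup V) ≤ _) hq)
  obtain ⟨k, hk, hk'⟩ := int_conj hS.sy (A.subgroupOf V) (pPrimeCore p V)
    (hAp.comap_of_injective V.subtype V.subtype_injective) h1
  refine ⟨k, mem_OO.2 ⟨k.2, hk⟩, fun a ha => ?_⟩
  exact hk' ⟨a, OP_le V (hA ha)⟩ ha

omit [Finite G] hp in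
theorem mk_eq_one {V : Subgroup G} {v : V} :
    (QuotientGroup.mk v : V ⧸ pPrimeCore p V) = 1 ↔ (v : G) ∈ OO p V := by
  rw [QuotientGroup.eq_one_iff, mem_OO]
  exact ⟨fun h => ⟨v.2, h⟩, fun ⟨_, h⟩ => h⟩

omit [Finite G] hp in
theorem mk_mem {V : Subgroup G} {v : V} :
    (QuotientGroup.mk v : V ⧸ pPrimeCore p V) ∈ pCore p (V ⧸ pPrimeCore p V) ↔ (v : G) ∈ OP p V := by
  rw [mem_OP]
  exact ⟨fun h => ⟨v.2, h⟩, fun ⟨_, h⟩ => h⟩

theorem aux_cent {Y : Type u} [Group Y] {x q a : Y}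
    (h1 : x * (q⁻¹ * a * q) * x⁻¹ * (q⁻¹ * a * q)⁻¹ = 1) (h2 : x * a * x⁻¹ * a⁻¹ = 1) :
    (x * q * x⁻¹ * q⁻¹) * a * (x * q * x⁻¹ * q⁻¹)⁻¹ * a⁻¹ = 1 := by
  have h3 : x⁻¹ * (q⁻¹ * a * q) * x = q⁻¹ * a * q := by
    rw [mul_inv_eq_one, mul_inv_eq_iff_eq_mul] at h1
    rw [mul_assoc, ← h1]; group
  calc (x * q * x⁻¹ * q⁻¹) * a * (x * q * x⁻¹ * q⁻¹)⁻¹ * a⁻¹
      = x * q * (x⁻¹ * (q⁻¹ * a * q) * x) * q⁻¹ * x⁻¹ * a⁻¹ := by group
    _ = x * a * x⁻¹ * a⁻¹ := by rw [h3]; group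
    _ = 1 := h2

theorem aux_pow {Y : Type u} [Group Y] {x q c : Y} (hq : x * q * x⁻¹ = c * q)
    (hc : x * c * x⁻¹ = c) (n : ℕ) : x ^ n * q * (x ^ n)⁻¹ = c ^ n * q := by
  induction n with
  | zero => simp
  | succ n ih =>
    calc x ^ (n + 1) * q * (x ^ (n + 1))⁻¹ = x * (x ^ n * q * (x ^ n)⁻¹) * x⁻¹ := by
          rw [pow_succ']; group
      _ = x * c ^ n * q * x⁻¹ := by rw [ih]; group
      _ = (x * c * x⁻¹) ^ n * (x * q * x⁻¹) := by rw [conj_pow]; group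
      _ = c ^ (n + 1) * q := by rw [hc, hq, pow_succ]; group

/-- the basic centralizer lemma: a `p'`-subgroup normalised by `S ∩ C(A)` is in `O_{p'}(V)`. -/
theorem le_OO_of_inv_cent {V S A X : Subgroup G} (hV : IsPSolvable p V) (hS : Syl p S V)
    (hAS : A ≤ S) (hab : ∀ a ∈ A, ∀ b ∈ A, a * b = b * a)
    (hAn : ∀ s ∈ S, ∀ a ∈ A, s * a * s⁻¹ ∈ A) (hAO : A ≤ OP p V)
    (hX : X ≤ V) (hXc : (Nat.card X).Coprime p)
    (hn : ∀ s ∈ S, (∀ a ∈ A, s * a = a * s) → ∀ x ∈ X, s * x * s⁻¹ ∈ X) : X ≤ OO p V := by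
  intro x hx
  have hxV := hX hx
  have c1 : ∀ y ∈ X, ∀ r ∈ S, r ∈ OP p V → (∀ a ∈ A, r * a = a * r) →
      y * r * y⁻¹ * r⁻¹ ∈ OO p V := by
    intro y hy r hr hrO hra
    refine mem_OO_of_mem_OP (mul_mem (OP_conj (hX hy) hrO) (inv_mem hrO)) (coprime_of_mem hXc ?_)
    have : y * r * y⁻¹ * r⁻¹ = y * (r * y⁻¹ * r⁻¹) := by group
    rw [this]
    exact mul_mem hy (hn r hr hra _ (inv_mem hy))
  have c2 : ∀ y ∈ X, ∀ a ∈ A, y * a * y⁻¹ * a⁻¹ ∈ OO p V := fun y hy a ha =>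
    c1 y hy a (hAS ha) (hAO ha) (fun b hb => hab a ha b hb)
  refine mem_OO_of_mem_OP ?_ (coprime_of_mem hXc hx)
  refine mem_OP_of_comm hV hS hxV ?_
  intro q hq hqO
  have hqV : q ∈ V := hS.le hq
  have hcO : x * q * x⁻¹ * q⁻¹ ∈ OP p V := mul_mem (OP_conj hxV hqO) (inv_mem hqO)
  obtain ⟨k, hk, r, hr, hrO, hkr⟩ := exists_factor hS hcO
  have hrV : r ∈ V := hS.le hr
  have hkV : k ∈ V := OO_le V hk
  have e1 : (QuotientGroup.mk (⟨x, hxV⟩ * ⟨q, hqV⟩ * (⟨x, hxV⟩)⁻¹ * (⟨q, hqV⟩)⁻¹ : V) :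
      V ⧸ pPrimeCore p V) = QuotientGroup.mk (⟨r, hrV⟩ : V) := by
    have h1 : (⟨x, hxV⟩ * ⟨q, hqV⟩ * (⟨x, hxV⟩)⁻¹ * (⟨q, hqV⟩)⁻¹ : V) = ⟨k, hkV⟩ * ⟨r, hrV⟩ :=
      Subtype.ext hkr
    have h2 : (QuotientGroup.mk (⟨k, hkV⟩ : V) : V ⧸ pPrimeCore p V) = 1 := mk_eq_one.2 hk
    rw [h1, QuotientGroup.mk_mul, h2, one_mul]
  have hra : ∀ a ∈ A, r * a = a * r := by
    intro a ha
    have haV : a ∈ V := hS.le (hAS ha)
    have h1 : r * a * r⁻¹ * a⁻¹ ∈ A := mul_mem (hAn r hr a ha) (inv_mem ha)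
    have h2 : r * a * r⁻¹ * a⁻¹ ∈ OO p V := by
      have h3 := c2 x hx a ha
      have h4 := c2 x hx (q⁻¹ * a * q) (by
        have := hAn q⁻¹ (inv_mem hq) a ha
        rwa [inv_inv] at this)
      have h3' : (QuotientGroup.mk (⟨x, hxV⟩ * ⟨a, haV⟩ * (⟨x, hxV⟩)⁻¹ * (⟨a, haV⟩)⁻¹ : V) :
        V ⧸ pPrimeCore p V) = 1 := mk_eq_one.2 h3
      have h4' : (QuotientGroup.mk (⟨x, hxV⟩ * ((⟨q, hqV⟩)⁻¹ * ⟨a, haV⟩ * ⟨q, hqV⟩) * (⟨x, hxV⟩)⁻¹ *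
        ((⟨q, hqV⟩)⁻¹ * ⟨a, haV⟩ * ⟨q, hqV⟩)⁻¹ : V) :
        V ⧸ pPrimeCore p V) = 1 := mk_eq_one.2 h4
      have h5 : (QuotientGroup.mk (⟨r, hrV⟩ * ⟨a, haV⟩ * (⟨r, hrV⟩)⁻¹ * (⟨a, haV⟩)⁻¹ : V) :
        V ⧸ pPrimeCore p V) = 1 := by
        simp only [QuotientGroup.mk_mul, QuotientGroup.mk_inv] at h3' h4' e1 ⊢
        rw [← e1]
        exact aux_cent h4' h3'
      exact mk_eq_one.1 h5
    have h3 := hS.eq_one (hAS h1) h2
    rw [mul_inv_eq_one, mul_inv_eq_iff_eq_mul] at h3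
    exact h3
  have h6 := c1 x hx r hr hrO hra
  have h6' : (QuotientGroup.mk (⟨x, hxV⟩ * ⟨r, hrV⟩ * (⟨x, hxV⟩)⁻¹ * (⟨r, hrV⟩)⁻¹ : V) :
        V ⧸ pPrimeCore p V) = 1 := mk_eq_one.2 h6
  have h7 : (QuotientGroup.mk (⟨r, hrV⟩ : V) : V ⧸ pPrimeCore p V) ^ (orderOf x) = 1 := by
    simp only [QuotientGroup.mk_mul, QuotientGroup.mk_inv] at h6' e1
    rw [mul_inv_eq_one] at h6'
    have h8 := aux_pow (n := orderOf x) ((mul_inv_eq_iff_eq_mul.1 e1)) h6'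
    have h9 : (QuotientGroup.mk (⟨x, hxV⟩ : V) : V ⧸ pPrimeCore p V) ^ (orderOf x) = 1 := by
      have : (⟨x, hxV⟩ : V) ^ orderOf x = 1 := Subtype.ext (pow_orderOf_eq_one x)
      rw [← QuotientGroup.mk_pow, this, QuotientGroup.mk_one]
    rw [h9, inv_one, mul_one, one_mul] at h8
    exact mul_eq_right.1 h8.symm
  have h8 : (QuotientGroup.mk (⟨r, hrV⟩ : V) : V ⧸ pPrimeCore p V) = 1 := by
    refine eq_one_of_pel (p := p) (pel_of_isPGroup (Solv.pCore_isPGroup p) (mk_mem.2 hrO)) ?_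
    exact Nat.Coprime.coprime_dvd_left (orderOf_dvd_of_pow_eq_one h7) (coprime_of_mem hXc hx)
  rw [h8] at e1
  exact mk_eq_one.1 e1

end Cfsg.Agent.H31.PP
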