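import Cfsg.Agent.H31.PP.BasicA
import Cfsg.Agent.CIT.PPCop
import Cfsg.Agent.CIT.PPBal

/-!
# Basics of the `O_{p'}`, `O_{p',p}` calculus: the complete list
-/

set_option autoImplicit false

namespace Cfsg.Agent.H31.PP

open Subgroup Cfsg

universe u

variable {G : Type u} [Group G] [Finite G] {p : ℕ} [hp : Fact p.Prime]

theorem balance {a b : G} (hb : IsPSolvable p (centralizer ({b} : Set G))) (hab : a * b = b * a)
    (hap : ∃ k : ℕ, a ^ p ^ k = 1) {e : G} (he : e ∈ th p a) (heb : e * b = b * e) : e ∈ th p b :=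
  CIT.PP.balance hb hab hap he heb

theorem mem_OP_of_BS {V : Subgroup G} {x : G} (hx : x ∈ V)
    (h : ∀ v ∈ V, ∀ y ∈ closure ({x, v * x * v⁻¹} : Set G), ∃ k : ℕ, y ^ p ^ k ∈ OO p V) :
    x ∈ OP p V :=
  CIT.PP.mem_OP_of_BS hx h

theorem exists_per {K : Subgroup G} (hKc : (Nat.card K).Coprime p) {a w : G}
    (hap : ∃ k : ℕ, a ^ p ^ k = 1) (ha : ∀ x ∈ K, a * x * a⁻¹ ∈ K) (hw : w ∈ K) :
    ∃ c ∈ K, ∃ k ∈ K, w = c * k ∧ c * a = a * c ∧ k ∈ closure ({a, w⁻¹ * a * w} : Set G) :=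
  CIT.PP.exists_per hKc hap ha hw

theorem exists_fix {N : Subgroup G} (hNc : (Nat.card N).Coprime p) {z x : G}
    (hzp : ∃ k : ℕ, z ^ p ^ k = 1) (hz : ∀ n ∈ N, z * n * z⁻¹ ∈ N)
    (hx : x * z * x⁻¹ * z⁻¹ ∈ N) : ∃ n ∈ N, (n * x) * z = z * (n * x) :=
  CIT.PP.exists_fix hNc hzp hz hx

theorem gen_cent {A K W : Subgroup G} (hAp : IsPGroup p A)
    (hab : ∀ a ∈ A, ∀ b ∈ A, a * b = b * a) (hnc : ¬ IsCyclic A)
    (hKc : (Nat.card K).Coprime p) (hA : ∀ a ∈ A, ∀ x ∈ K, a * x * a⁻¹ ∈ K)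
    (h : ∀ a ∈ A, a ≠ 1 → ∀ x ∈ K, x * a = a * x → x ∈ W) : K ≤ W :=
  CIT.PP.gen_cent hAp hab hnc hKc hA h

end Cfsg.Agent.H31.PP
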