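import Cfsg.Agent.H31.PP.Trans

/-!
# Final contradiction, first half: the group generated by the `O_{p'}(C(a))` is proper
-/

set_option autoImplicit false

namespace Cfsg.Agent.H31.PP

open Subgroup Cfsg
open scoped Pointwise

universe u

variable {G : Type u} [Group G] [Finite G] {p : ℕ} [hp : Fact p.Prime]

omit [Finite G] in
theorem mem_cent {a x : G} : x ∈ centralizer ({a} : Set G) ↔ x * a = a * x := by
  rw [mem_centralizer_singleton_iff]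

omit [Finite G] hp in
theorem mem_smul_of {P : Sylow p G} {x : G} (g : G) (hx : x ∈ (P : Subgroup G)) :
    g * x * g⁻¹ ∈ ((g • P : Sylow p G) : Subgroup G) :=
  Subgroup.smul_mem_pointwise_smul _ (MulAut.conj g) _ hx

/-- the centralizer of a nontrivial element of the centre of `P` is proper. -/
theorem cent_ne_top (hM : MinS p G) (P : Sylow p G) {z : G} (hz : z ∈ (P : Subgroup G))
    (hz1 : z ≠ 1) : centralizer ({z} : Set G) ≠ ⊤ := by
  intro h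
  haveI := hM.simp
  have hN : (zpowers z).Normal := ⟨fun x hx g => by
    obtain ⟨k, rfl⟩ := hx
    have hg : g ∈ centralizer ({z} : Set G) := by rw [h]; trivial
    have h1 : Commute g z := mem_cent.1 hg
    have h2 : g * z ^ k * g⁻¹ = z ^ k := by
      rw [(h1.zpow_right k).eq]; group
    show g * z ^ k * g⁻¹ ∈ zpowers z
    rw [h2]
    exact zpow_mem_zpowers z k⟩
  rcases hN.eq_bot_or_eq_top with h1 | h1
  · rw [zpowers_eq_bot] at h1
    exact hz1 h1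
  · apply hM.pair P P
    rw [eq_top_iff, ← h1, zpowers_le]
    exact mem_sup_left hz

theorem closure_step (hM : MinS p G) (P : Sylow p G) (A : Subgroup G) (hAP : A ≤ P)
    (hAn : ∀ x ∈ (P : Subgroup G), ∀ a ∈ A, x * a * x⁻¹ ∈ A)
    (hab : ∀ a ∈ A, ∀ b ∈ A, a * b = b * a)
    {z : G} (hz : z ∈ A) (hz1 : z ≠ 1) (hzc : ∀ x ∈ (P : Subgroup G), x * z = z * x)
    (hstar : ∀ V : Subgroup G, V ≠ ⊤ → (P : Subgroup G) ≤ V → A ≤ OP p V)
    {K : Subgroup G} (hKc : (Nat.card K).Coprime p)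
    (hKn : ∀ x ∈ (P : Subgroup G), ∀ k ∈ K, x * k * x⁻¹ ∈ K)
    {w a e : G} (hw : w ∈ K) (ha : a ∈ A) (he : e ∈ th p a) :
    ∃ m u, m ∈ th p z ∧ (∀ r ∈ (P : Subgroup G), (∀ a ∈ A, r * a = a * r) → r * m = m * r) ∧
      (∃ K' : Subgroup G, (Nat.card K').Coprime p ∧
        (∀ x ∈ (P : Subgroup G), ∀ k ∈ K', x * k * x⁻¹ ∈ K') ∧ u ∈ K') ∧ w * e = m * u := by
  have heC : e ∈ centralizer ({a} : Set G) := OO_le _ he
  have hea : e * a = a * e := mem_cent.1 heC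
  have haP : a ∈ (P : Subgroup G) := hAP ha
  -- the subgroup `V1`
  obtain ⟨V1, hV1⟩ : ∃ V1 : Subgroup G, V1 = ((e • P : Sylow p G) : Subgroup G) ⊔
    ((w⁻¹ • P : Sylow p G) : Subgroup G) := ⟨_, rfl⟩
  have hV1t : V1 ≠ ⊤ := hV1 ▸ hM.pair _ _
  have hP1 : ∀ x ∈ (P : Subgroup G), e * x * e⁻¹ ∈ V1 := fun x hx => by
    rw [hV1]; exact mem_sup_left (mem_smul_of e hx)
  have hP2 : ∀ x ∈ (P : Subgroup G), w⁻¹ * x * w⁻¹⁻¹ ∈ V1 := fun x hx => by
    rw [hV1]; exact mem_sup_right (mem_smul_of w⁻¹ hx)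
  have haV1 : a ∈ OP p V1 := by
    have := star_cj hstar e hV1t hP1 ha
    rwa [hea, mul_inv_cancel_right] at this
  have haV2 : w⁻¹ * a * w ∈ OP p V1 := by
    have := star_cj hstar w⁻¹ hV1t hP2 ha
    rwa [inv_inv] at this
  obtain ⟨c, hc, k, hk, hwck, hca, hkc⟩ := exists_per hKc (pel_of_isPGroup P.isPGroup' haP)
    (hKn a haP) hw
  have hkO : k ∈ OO p V1 := by
    refine mem_OO_of_mem_OP ?_ (coprime_of_mem hKc hk)
    have : closure ({a, w⁻¹ * a * w} : Set G) ≤ OP p V1 := by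
      rw [closure_le]
      rintro x (rfl | rfl)
      · exact haV1
      · exact haV2
    exact this hkc
  have hkV : k ∈ V1 := OO_le V1 hkO
  -- the subgroup `V0`
  obtain ⟨V0, hV0⟩ : ∃ V0 : Subgroup G, V0 = cj e⁻¹ V1 := ⟨_, rfl⟩
  have hV0t : V0 ≠ ⊤ := hV0 ▸ cj_ne_top hV1t
  have hmV0 : ∀ x : G, x ∈ V0 ↔ e * x * e⁻¹ ∈ V1 := fun x => by
    rw [hV0, mem_cj, inv_inv]
  have hkeO : e⁻¹ * k * e ∈ OO p V0 := by
    have := OO_cj_of_mem e⁻¹ hkO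
    rwa [inv_inv, ← hV0] at this
  have hPV0 : (P : Subgroup G) ≤ V0 := fun x hx => (hmV0 x).2 (hP1 x hx)
  have hV0s : IsPSolvable p V0 := hM.sub V0 hV0t
  have hSV0 : Syl p (P : Subgroup G) V0 := Syl.of_sylow P hPV0
  -- `R = C_P(A)`
  obtain ⟨R, hR⟩ : ∃ R : Subgroup G, R = (P : Subgroup G) ⊓ centralizer (A : Set G) := ⟨_, rfl⟩
  have hRm : ∀ r : G, r ∈ R ↔ r ∈ (P : Subgroup G) ∧ ∀ b ∈ A, r * b = b * r := by
    intro r
    rw [hR, mem_inf, mem_centralizer_iff]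
    exact ⟨fun h => ⟨h.1, fun b hb => (h.2 b hb).symm⟩, fun h => ⟨h.1, fun b hb => (h.2 b hb).symm⟩⟩
  have hRp : IsPGroup p R := P.isPGroup'.to_le (fun r hr => ((hRm r).1 hr).1)
  have hzR : z ∈ R := (hRm z).2 ⟨hAP hz, fun b hb => hab z hz b hb⟩
  -- `X = C_K(a) th(a)`
  obtain ⟨X, hX⟩ : ∃ X : Subgroup G, X = (K ⊓ centralizer ({a} : Set G)) ⊔ th p a := ⟨_, rfl⟩
  have hXc : (Nat.card X).Coprime p := by
    rw [hX]
    refine coprime_sup (fun h hh x hx => OO_conj hh.2 hx)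
      (Nat.Coprime.coprime_dvd_left (Subgroup.card_dvd_of_le inf_le_left) hKc) (OO_coprime _)
  have hRX : ∀ r ∈ R, ∀ x ∈ X, r * x * r⁻¹ ∈ X := by
    intro r hr
    obtain ⟨hr1, hr2⟩ := (hRm r).1 hr
    have hrC : r ∈ centralizer ({a} : Set G) := mem_cent.2 (hr2 a ha)
    have h1 : X ≤ cj r⁻¹ X := by
      conv_lhs => rw [hX]
      refine sup_le ?_ ?_
      · rintro x ⟨hx1, hx2⟩
        rw [mem_cj, inv_inv, hX]
        exact mem_sup_left (mem_inf.2 ⟨hKn r hr1 x hx1, mul_mem (mul_mem hrC hx2) (inv_mem hrC)⟩)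
      · intro x hx
        rw [mem_cj, inv_inv, hX]
        exact mem_sup_right (OO_conj hrC hx)
    intro x hx
    have := h1 hx
    rwa [mem_cj, inv_inv] at this
  -- `e1 = c e`
  have hcX : c ∈ X := by rw [hX]; exact mem_sup_left (mem_inf.2 ⟨hc, mem_cent.2 hca⟩)
  have heX : e ∈ X := by rw [hX]; exact mem_sup_right he
  have he1X : c * e ∈ X := mul_mem hcX heX
  have hV0c : ∀ x ∈ (P : Subgroup G), (c * e)⁻¹ * x * (c * e) ∈ V0 := by
    intro x hx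
    rw [hmV0]
    have h1 : e * ((c * e)⁻¹ * x * (c * e)) * e⁻¹ = k * (w⁻¹ * x * w⁻¹⁻¹) * k⁻¹ := by
      rw [hwck]; group
    rw [h1]
    exact mul_mem (mul_mem hkV (hP2 x hx)) (inv_mem hkV)
  -- Schur-Zassenhaus
  obtain ⟨Y, hY⟩ : ∃ Y : Subgroup G, Y = X ⊓ V0 := ⟨_, rfl⟩
  have hRV0 : R ≤ V0 := fun r hr => hPV0 ((hRm r).1 hr).1
  have hRY : ∀ r ∈ R, ∀ y ∈ Y, r * y * r⁻¹ ∈ Y := by
    intro r hr y hy
    rw [hY, mem_inf] at hy ⊢
    exact ⟨hRX r hr y hy.1, mul_mem (mul_mem (hRV0 hr) hy.2) (inv_mem (hRV0 hr))⟩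
  have hYc : (Nat.card Y).Coprime p := by
    rw [hY]
    exact Nat.Coprime.coprime_dvd_left (Subgroup.card_dvd_of_le inf_le_left) hXc
  have hYO : Y ≤ OO p V0 := by
    refine le_OO_of_inv_cent hV0s hSV0 hAP hab hAn (hstar V0 hV0t hPV0) (hY ▸ inf_le_right) hYc ?_
    intro s hs hs' x hx
    exact hRY s ((hRm s).2 ⟨hs, hs'⟩) x hx
  have hRN : R ≤ normalizer (Y : Set G) := CIT.PP.norm_of hRY
  have hB : cj (c * e)⁻¹ R ≤ Y ⊔ R := by
    rintro _ ⟨r, hr, rfl⟩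
    show (c * e)⁻¹ * r * (c * e)⁻¹⁻¹ ∈ Y ⊔ R
    rw [inv_inv]
    have h1 : (c * e)⁻¹ * r * (c * e) = ((c * e)⁻¹ * (r * (c * e) * r⁻¹)) * r := by group
    have h2 : (c * e)⁻¹ * (r * (c * e) * r⁻¹) ∈ Y := by
      rw [hY, mem_inf]
      refine ⟨mul_mem (inv_mem he1X) (hRX r hr _ he1X), ?_⟩
      have h3 : (c * e)⁻¹ * (r * (c * e) * r⁻¹) = ((c * e)⁻¹ * r * (c * e)) * r⁻¹ := by group
      rw [h3]
      exact mul_mem (hV0c r ((hRm r).1 hr).1) (inv_mem (hRV0 hr))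
    rw [h1]
    exact mul_mem (mem_sup_left h2) (mem_sup_right hr)
  have hcop : (Nat.card Y).Coprime (Nat.card R) := by
    obtain ⟨n, hn⟩ := hRp.exists_card_eq
    rw [hn]
    exact Nat.Coprime.pow_right _ hYc
  have hsR : Group.IsSolvable R := by
    haveI := hRp.isNilpotent
    infer_instance
  obtain ⟨n, hn, hnR⟩ := Cop.sz_rel hRN hB (card_cj _ _) hcop (Or.inr hsR)
  -- `n R n⁻¹ = e1⁻¹ R e1`; put `e2 = n⁻¹`
  have hnY : n⁻¹ ∈ Y := inv_mem hn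
  have he2O : n⁻¹ ∈ OO p V0 := hYO hnY
  have hnX : n ∈ X := by
    rw [hY, mem_inf] at hn
    exact hn.1
  obtain ⟨m, hm⟩ : ∃ m : G, m = c * e * n := ⟨_, rfl⟩
  have hmX : m ∈ X := hm ▸ mul_mem he1X hnX
  -- `m` centralises `R`
  have hmR : ∀ r ∈ R, m * r * m⁻¹ ∈ R := by
    intro r hr
    have h1 : n * r * n⁻¹ ∈ cj (c * e)⁻¹ R := by
      have : n * r * n⁻¹ ∈ MulAut.conj n • R := Subgroup.smul_mem_pointwise_smul _ (MulAut.conj n) _ hr
      rwa [hnR] at this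
    rw [mem_cj, inv_inv] at h1
    have h2 : m * r * m⁻¹ = c * e * (n * r * n⁻¹) * (c * e)⁻¹ := by rw [hm]; group
    rw [h2]
    exact h1
  have hXR1 : ∀ x ∈ X, x ∈ R → x = 1 := fun x hx hxR =>
    eq_one_of_pel (pel_of_isPGroup hRp hxR) (coprime_of_mem hXc hx)
  have hmc : ∀ r ∈ R, r * m = m * r := by
    intro r hr
    have h1 : m * r * m⁻¹ * r⁻¹ ∈ R := mul_mem (hmR r hr) (inv_mem hr)
    have h2 : m * r * m⁻¹ * r⁻¹ ∈ X := by
      have : m * r * m⁻¹ * r⁻¹ = m * (r * m⁻¹ * r⁻¹) := by group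
      rw [this]
      exact mul_mem hmX (hRX r hr _ (inv_mem hmX))
    have h3 := hXR1 _ h2 h1
    rw [mul_inv_eq_one, mul_inv_eq_iff_eq_mul] at h3
    exact h3.symm
  -- `m ∈ th z`
  have hzt := cent_ne_top hM P (hAP hz) hz1
  have hPz : (P : Subgroup G) ≤ centralizer ({z} : Set G) := fun x hx => mem_cent.2 (hzc x hx)
  have hmz : m ∈ th p z := by
    have h1 : X ⊓ centralizer (R : Set G) ≤ OO p (centralizer ({z} : Set G)) := by
      refine le_OO_of_inv_cent (hM.sub _ hzt) (Syl.of_sylow P hPz) hAP hab hAn (hstar _ hzt hPz) ?_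
        (Nat.Coprime.coprime_dvd_left (Subgroup.card_dvd_of_le inf_le_left) hXc) ?_
      · intro x hx
        have hx2 := mem_centralizer_iff.1 (mem_inf.1 hx).2
        exact mem_cent.2 (hx2 z hzR).symm
      · intro s hs hs' x hx
        have hsR : s ∈ R := (hRm s).2 ⟨hs, hs'⟩
        have h2 := mem_centralizer_iff.1 (mem_inf.1 hx).2 s hsR
        have h3 : s * x * s⁻¹ = x := by rw [h2]; group
        rw [h3]
        exact hx
    exact h1 (mem_inf.2 ⟨hmX, mem_centralizer_iff.2 (fun r hr => hmc r hr)⟩)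
  refine ⟨m, n⁻¹ * (e⁻¹ * k * e), hmz, fun r hr hr' => hmc r ((hRm r).2 ⟨hr, hr'⟩),
    ⟨OO p V0, OO_coprime V0, fun x hx k hk => OO_conj (hPV0 hx) hk, mul_mem he2O hkeO⟩, ?_⟩
  rw [hwck, hm]
  group

theorem finalA (hM : MinS p G) (P : Sylow p G) (A : Subgroup G) (hAP : A ≤ P)
    (hAn : ∀ x ∈ (P : Subgroup G), ∀ a ∈ A, x * a * x⁻¹ ∈ A)
    (hab : ∀ a ∈ A, ∀ b ∈ A, a * b = b * a)
    {z : G} (hz : z ∈ A) (hz1 : z ≠ 1) (hzc : ∀ x ∈ (P : Subgroup G), x * z = z * x)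
    (hstar : ∀ V : Subgroup G, V ≠ ⊤ → (P : Subgroup G) ≤ V → A ≤ OP p V) : z ∉ WW p A := by
  intro hzW
  have key : ∀ x ∈ WW p A, ∃ m u, m ∈ th p z ∧
      (∀ r ∈ (P : Subgroup G), (∀ a ∈ A, r * a = a * r) → r * m = m * r) ∧
      (∃ K' : Subgroup G, (Nat.card K').Coprime p ∧
        (∀ x ∈ (P : Subgroup G), ∀ k ∈ K', x * k * x⁻¹ ∈ K') ∧ u ∈ K') ∧ x = m * u := by
    intro x hx
    have step : ∀ x y : G, y ∈ {e : G | ∃ a ∈ A, a ≠ 1 ∧ e ∈ th p a} → (∃ m u, m ∈ th p z ∧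
      (∀ r ∈ (P : Subgroup G), (∀ a ∈ A, r * a = a * r) → r * m = m * r) ∧
      (∃ K' : Subgroup G, (Nat.card K').Coprime p ∧
        (∀ x ∈ (P : Subgroup G), ∀ k ∈ K', x * k * x⁻¹ ∈ K') ∧ u ∈ K') ∧ x = m * u) →
        (∃ m u, m ∈ th p z ∧
      (∀ r ∈ (P : Subgroup G), (∀ a ∈ A, r * a = a * r) → r * m = m * r) ∧
      (∃ K' : Subgroup G, (Nat.card K').Coprime p ∧
        (∀ x ∈ (P : Subgroup G), ∀ k ∈ K', x * k * x⁻¹ ∈ K') ∧ u ∈ K') ∧ x * y = m * u) := by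
      rintro x y ⟨a, ha, -, hy⟩ ⟨m, u, hm, hmR, ⟨K, hKc, hKn, hu⟩, rfl⟩
      obtain ⟨m', u', hm', hmR', hK', hmu⟩ :=
        closure_step hM P A hAP hAn hab hz hz1 hzc hstar hKc hKn hu ha hy
      refine ⟨m * m', u', mul_mem hm hm', fun r hr hr' => ?_, hK', ?_⟩
      · rw [← mul_assoc, hmR r hr hr', mul_assoc, hmR' r hr hr', mul_assoc]
      · rw [mul_assoc, hmu, mul_assoc]
    refine Subgroup.closure_induction_right (p := fun x _ => ∃ m u, m ∈ th p z ∧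
      (∀ r ∈ (P : Subgroup G), (∀ a ∈ A, r * a = a * r) → r * m = m * r) ∧
      (∃ K' : Subgroup G, (Nat.card K').Coprime p ∧
        (∀ x ∈ (P : Subgroup G), ∀ k ∈ K', x * k * x⁻¹ ∈ K') ∧ u ∈ K') ∧ x = m * u) ?_ ?_ ?_ hx
    · refine ⟨1, 1, one_mem _, fun r _ _ => by simp, ⟨⊥, by simp, ?_, one_mem _⟩, by simp⟩
      intro x _ k hk
      rw [mem_bot] at hk ⊢
      rw [hk]; group
    · intro x _ y hy h
      exact step x y hy h
    · intro x _ y hy h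
      obtain ⟨a, ha, ha1, hy⟩ := hy
      exact step x y⁻¹ ⟨a, ha, ha1, inv_mem hy⟩ h
  obtain ⟨m, u, hm, -, ⟨K, hKc, -, hu⟩, hmu⟩ := key z hzW
  have hmz : Commute m z := mem_cent.1 (OO_le _ hm)
  have hu' : u = m⁻¹ * z := by rw [hmu]; group
  -- `z` has order prime to `p`
  have h1 : z ^ (Nat.card K * orderOf m) = 1 := by
    have h2 : u ^ (Nat.card K * orderOf m) = 1 := by
      rw [pow_mul]
      have : u ^ Nat.card K = 1 := orderOf_dvd_iff_pow_eq_one.1 (K.orderOf_dvd_natCard hu)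
      rw [this, one_pow]
    rw [hu', (hmz.inv_left).mul_pow, inv_pow, mul_comm (Nat.card K) (orderOf m), pow_mul m,
      pow_orderOf_eq_one, one_pow, inv_one, one_mul] at h2
    rwa [mul_comm]
  have hc : (orderOf z).Coprime p :=
    Nat.Coprime.coprime_dvd_left (orderOf_dvd_of_pow_eq_one h1)
      (Nat.Coprime.mul_left hKc (coprime_of_mem (OO_coprime _) hm))
  exact hz1 (eq_one_of_pel (pel_of_isPGroup P.isPGroup' (hAP hz)) hc)

end Cfsg.Agent.H31.PP
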