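import Cfsg.Agent.H31.PP.FinA

/-!
# Final contradiction, second half
-/

set_option autoImplicit false

namespace Cfsg.Agent.H31.PP

open Subgroup Cfsg
open scoped Pointwise

universe u

variable {G : Type u} [Group G] [Finite G] {p : ℕ} [hp : Fact p.Prime]

omit [Finite G] hp in
theorem mem_smul_iff {P : Sylow p G} {g x : G} :
    x ∈ ((g • P : Sylow p G) : Subgroup G) ↔ g⁻¹ * x * g ∈ (P : Subgroup G) := by
  constructor
  · rintro ⟨y, hy, rfl⟩
    have : g⁻¹ * (g * y * g⁻¹) * g = y := by group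
    show g⁻¹ * (g * y * g⁻¹) * g ∈ (P : Subgroup G)
    rw [this]
    exact hy
  · intro h
    have := mem_smul_of g h
    have e : g * (g⁻¹ * x * g) * g⁻¹ = x := by group
    rwa [e] at this

omit hp in
theorem th_conj (g a : G) {x : G} (hx : x ∈ th p a) : g * x * g⁻¹ ∈ th p (g * a * g⁻¹) := by
  have h1 := OO_cj_of_mem g hx
  have h2 : cj g (centralizer ({a} : Set G)) = centralizer ({g * a * g⁻¹} : Set G) := by
    ext y
    rw [mem_cj, mem_cent, mem_cent]
    constructor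
    · intro h
      have : g * (g⁻¹ * y * g * a) * g⁻¹ = g * (a * (g⁻¹ * y * g)) * g⁻¹ := by rw [h]
      calc y * (g * a * g⁻¹) = g * (g⁻¹ * y * g * a) * g⁻¹ := by group
        _ = g * (a * (g⁻¹ * y * g)) * g⁻¹ := this
        _ = g * a * g⁻¹ * y := by group
    · intro h
      have : g⁻¹ * (y * (g * a * g⁻¹)) * g = g⁻¹ * (g * a * g⁻¹ * y) * g := by rw [h]
      calc g⁻¹ * y * g * a = g⁻¹ * (y * (g * a * g⁻¹)) * g := by group
        _ = g⁻¹ * (g * a * g⁻¹ * y) * g := this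
        _ = a * (g⁻¹ * y * g) := by group
  rwa [h2] at h1

omit hp in
theorem WW_cj_le (g : G) (A : Subgroup G) : WW p (cj g A) ≤ cj g (WW p A) := by
  rw [WW, closure_le]
  rintro e ⟨a, ha, ha1, he⟩
  rw [SetLike.mem_coe, mem_cj]
  refine subset_closure ⟨g⁻¹ * a * g, mem_cj.1 ha, ?_, ?_⟩
  · intro h
    apply ha1
    have : a = g * (g⁻¹ * a * g) * g⁻¹ := by group
    rw [this, h]; group
  · have := th_conj g⁻¹ a he
    rwa [inv_inv] at this

theorem finalB (hM : MinS p G) (P : Sylow p G) (A : Subgroup G) (hAP : A ≤ P)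
    (hAn : ∀ x ∈ (P : Subgroup G), ∀ a ∈ A, x * a * x⁻¹ ∈ A)
    (hab : ∀ a ∈ A, ∀ b ∈ A, a * b = b * a) (hnc : ¬ IsCyclic A)
    {z : G} (hz : z ∈ A) (hz1 : z ≠ 1)
    (hstar : ∀ V : Subgroup G, V ≠ ⊤ → (P : Subgroup G) ≤ V → A ≤ OP p V)
    (hTh : ∀ g : G, A.map (MulAut.conj g).toMonoidHom ≤ (P : Subgroup G) → ∀ K : Subgroup G,
      (Nat.card K).Coprime p → (∀ x ∈ (P : Subgroup G), ∀ k ∈ K, x * k * x⁻¹ ∈ K) →
      ∀ a ∈ A.map (MulAut.conj g).toMonoidHom, a ≠ 1 → ∀ k ∈ K, k * a = a * k →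
      k ∈ WW p (A.map (MulAut.conj g).toMonoidHom))
    (hWz : z ∉ WW p A) : False := by
  have hsimp := hM.simp
  obtain ⟨W, hW⟩ : ∃ W, W = WW p A := ⟨_, rfl⟩
  rw [← hW] at hWz
  have hAp : IsPGroup p A := P.isPGroup'.to_le hAP
  have e1 : A.map (MulAut.conj (1 : G)).toMonoidHom = A := cj_one A
  -- F3
  have F3 : ∀ K : Subgroup G, (Nat.card K).Coprime p →
      (∀ x ∈ (P : Subgroup G), ∀ k ∈ K, x * k * x⁻¹ ∈ K) → K ≤ W := by
    intro K hKc hKn
    rw [hW]
    refine gen_cent hAp hab hnc hKc (fun a ha => hKn a (hAP ha)) ?_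
    intro a ha ha1 x hx hxa
    have h1 := hTh 1 (by rw [e1]; exact hAP) K hKc hKn a (by rw [e1]; exact ha) ha1 x hx hxa
    rwa [e1] at h1
  -- F4
  have F4 : W ≠ ⊥ := by
    intro hWb
    have h1 : ∀ g : G, g * z * g⁻¹ ∈ (P : Subgroup G) := by
      intro g
      obtain ⟨V, hV⟩ : ∃ V : Subgroup G, V = (P : Subgroup G) ⊔ ((g⁻¹ • P : Sylow p G) : Subgroup G) :=
        ⟨_, rfl⟩
      have hVt : V ≠ ⊤ := hV ▸ hM.pair _ _
      have hPV : (P : Subgroup G) ≤ V := hV ▸ le_sup_left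
      have hS : Syl p ((g⁻¹ • P : Sylow p G) : Subgroup G) V := Syl.of_sylow _ (hV ▸ le_sup_right)
      have hO : OO p V ≤ W := F3 _ (OO_coprime V) (fun x hx k hk => OO_conj (hPV hx) hk)
      obtain ⟨k, hk, q, hq, -, hkq⟩ := exists_factor hS (hstar V hVt hPV hz)
      have hk1 : k = 1 := by
        have := hO hk
        rwa [hWb, mem_bot] at this
      rw [hk1, one_mul] at hkq
      rw [← hkq, mem_smul_iff, inv_inv] at hq
      exact hq
    have h2 : z ∈ (P : Subgroup G).normalCore := fun g => h1 g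
    rcases (normalCore_normal (P : Subgroup G)).eq_bot_or_eq_top with h3 | h3
    · rw [h3, mem_bot] at h2
      exact hz1 h2
    · apply hM.pair P P
      rw [eq_top_iff, ← h3]
      exact (normalCore_le _).trans le_sup_left
  -- F5
  have hWn : ∀ x ∈ (P : Subgroup G), ∀ w ∈ W, x * w * x⁻¹ ∈ W := by
    intro x hx
    have h1 : W ≤ cj x⁻¹ W := by
      conv_lhs => rw [hW, WW]
      rw [closure_le]
      rintro e ⟨a, ha, ha1, he⟩
      rw [SetLike.mem_coe, mem_cj, inv_inv, hW]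
      refine subset_closure ⟨x * a * x⁻¹, hAn x hx a ha, ?_, th_conj x a he⟩
      intro h
      apply ha1
      rwa [conj_eq_one_iff] at h
    intro w hw
    have := h1 hw
    rwa [mem_cj, inv_inv] at this
  obtain ⟨V, hV⟩ : ∃ V : Subgroup G, V = W ⊔ (P : Subgroup G) := ⟨_, rfl⟩
  have hVt : V ≠ ⊤ := by
    intro h
    have h1 : V ≤ normalizer (W : Set G) := by
      rw [hV]
      exact sup_le le_normalizer (CIT.PP.norm_of hWn)
    rw [h, top_le_iff, normalizer_eq_top_iff] at h1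
    rcases h1.eq_bot_or_eq_top with h2 | h2
    · exact F4 h2
    · apply hWz
      rw [h2]
      trivial
  have hPV : (P : Subgroup G) ≤ V := hV ▸ le_sup_right
  have hWO : W ≤ OO p V := by
    conv_lhs => rw [hW, WW]
    rw [closure_le]
    rintro e ⟨a, ha, ha1, he⟩
    have h1 : th p a ≤ OO p V := by
      refine le_OO_of_inv_cent (hM.sub V hVt) (Syl.of_sylow P hPV) hAP hab hAn (hstar V hVt hPV) ?_
        (OO_coprime _) ?_
      · intro x hx
        rw [hV, hW]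
        exact mem_sup_left (subset_closure ⟨a, ha, ha1, hx⟩)
      · intro s _ hs' x hx
        exact OO_conj (mem_cent.2 (hs' a ha)) hx
    exact h1 he
  have hWc : (Nat.card W).Coprime p :=
    Nat.Coprime.coprime_dvd_left (Subgroup.card_dvd_of_le hWO) (OO_coprime V)
  -- F6
  have F6 : ∀ g : G, ∀ w ∈ W, g * w * g⁻¹ ∈ W := by
    intro g
    obtain ⟨U, hU⟩ : ∃ U : Subgroup G, U = (P : Subgroup G) ⊔ ((g • P : Sylow p G) : Subgroup G) :=
      ⟨_, rfl⟩
    have hUt : U ≠ ⊤ := hU ▸ hM.pair _ _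
    have hPU : (P : Subgroup G) ≤ U := hU ▸ le_sup_left
    have hgU : ∀ x ∈ (P : Subgroup G), g * x * g⁻¹ ∈ U := fun x hx => by
      rw [hU]
      exact mem_sup_right (mem_smul_of g hx)
    have hAg : cj g A ≤ OP p U := by
      rintro _ ⟨a, ha, rfl⟩
      exact star_cj hstar g hUt hgU ha
    obtain ⟨k, hk, hkA⟩ := exists_conj_le (Syl.of_sylow P hPU) hAg (hAp.map _)
    have hkW : k ∈ W := F3 _ (OO_coprime U) (fun x hx k hk => OO_conj (hPU hx) hk) hk
    have hkgP : cj (k * g) A ≤ (P : Subgroup G) := by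
      rw [← cj_cj]
      rintro _ ⟨a, ha, rfl⟩
      exact hkA a ha
    have h1 : W ≤ WW p (cj (k * g) A) := by
      refine gen_cent (A := cj (k * g) A) (hAp.map _) ?_ ?_ hWc (fun a ha => hWn a (hkgP ha)) ?_
      · rintro _ ⟨a, ha, rfl⟩ _ ⟨b, hb, rfl⟩
        rw [← map_mul, hab a ha b hb, map_mul]
      · intro h
        apply hnc
        exact (A.equivMapOfInjective _ (MulAut.conj (k * g)).injective).isCyclic.2 h
      · intro a ha ha1 x hx hxa
        exact hTh (k * g) hkgP W hWc hWn a ha ha1 x hx hxa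
    have h2 : W ≤ cj (k * g) W := by
      conv_rhs => rw [hW]
      exact h1.trans (WW_cj_le _ _)
    have h3 : W = cj (k * g) W := eq_of_le_of_card_ge h2 (card_cj _ _).le
    intro w hw
    have h4 : (k * g) * w * (k * g)⁻¹ ∈ cj (k * g) W := conj_mem_cj hw
    rw [← h3] at h4
    have h5 : g * w * g⁻¹ = k⁻¹ * (k * g * w * (k * g)⁻¹) * k := by group
    rw [h5]
    exact mul_mem (mul_mem (inv_mem hkW) h4) hkW
  have hWN : W.Normal := ⟨fun w hw g => F6 g w hw⟩
  rcases hWN.eq_bot_or_eq_top with h2 | h2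
  · exact F4 h2
  · apply hWz
    rw [h2]
    trivial

theorem final (hM : MinS p G) (P : Sylow p G) (A : Subgroup G) (hAP : A ≤ P)
    (hAn : ∀ x ∈ (P : Subgroup G), ∀ a ∈ A, x * a * x⁻¹ ∈ A)
    (hab : ∀ a ∈ A, ∀ b ∈ A, a * b = b * a) (hnc : ¬ IsCyclic A)
    {z : G} (hz : z ∈ A) (hz1 : z ≠ 1) (hzc : ∀ x ∈ (P : Subgroup G), x * z = z * x)
    (hstar : ∀ V : Subgroup G, V ≠ ⊤ → (P : Subgroup G) ≤ V → A ≤ OP p V)
    (hTh : ∀ g : G, A.map (MulAut.conj g).toMonoidHom ≤ (P : Subgroup G) → ∀ K : Subgroup G,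
      (Nat.card K).Coprime p → (∀ x ∈ (P : Subgroup G), ∀ k ∈ K, x * k * x⁻¹ ∈ K) →
      ∀ a ∈ A.map (MulAut.conj g).toMonoidHom, a ≠ 1 → ∀ k ∈ K, k * a = a * k →
      k ∈ WW p (A.map (MulAut.conj g).toMonoidHom)) : False :=
  finalB hM P A hAP hAn hab hnc hz hz1 hstar hTh
    (finalA hM P A hAP hAn hab hz hz1 hzc hstar)

end Cfsg.Agent.H31.PP
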