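import Cfsg.Agent.H31.PP.Basics
import Cfsg.Agent.Cop.Basic

/-!
# Transport of `O_{p'}(V)` and `O_{p',p}(V)` by conjugation
-/

set_option autoImplicit false

namespace Cfsg.Agent.H31.PP

open Subgroup Cfsg
open scoped Pointwise

universe u

variable {G : Type u} [Group G] [Finite G] {p : ℕ} [hp : Fact p.Prime]

omit hp in
theorem pow_mem_OO {V : Subgroup G} {x : G} (hx : x ∈ OP p V) : ∃ k : ℕ, x ^ p ^ k ∈ OO p V := by
  obtain ⟨h, hx'⟩ := mem_OP.1 hx
  obtain ⟨k, hk⟩ := pel_of_isPGroup (Solv.pCore_isPGroup p) hx'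
  refine ⟨k, ?_⟩
  rw [← QuotientGroup.mk_pow] at hk
  exact mk_eq_one.1 hk

omit hp in
theorem le_OP {V M : Subgroup G} (hM : M ≤ V) (hn : ∀ v ∈ V, ∀ x ∈ M, v * x * v⁻¹ ∈ M)
    (hpp : ∀ x ∈ M, ∃ k : ℕ, x ^ p ^ k ∈ OO p V) : M ≤ OP p V := by
  have h1 : (M.subgroupOf V).Normal := ⟨fun x hx v => by
    rw [mem_subgroupOf] at hx ⊢
    exact hn v v.2 x hx⟩
  have h2 : ((M.subgroupOf V).map (QuotientGroup.mk' (pPrimeCore p V))).Normal :=
    h1.map _ (QuotientGroup.mk'_surjective _)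
  have h3 : IsPGroup p ((M.subgroupOf V).map (QuotientGroup.mk' (pPrimeCore p V))) := by
    rintro ⟨y, v, hv, rfl⟩
    obtain ⟨k, hk⟩ := hpp v (mem_subgroupOf.1 hv)
    refine ⟨k, Subtype.ext ?_⟩
    show (QuotientGroup.mk' (pPrimeCore p V) v) ^ p ^ k = 1
    rw [← map_pow]
    exact mk_eq_one.2 hk
  intro x hx
  exact mem_OP.2 ⟨hM hx, Solv.le_pCore h2 h3 ⟨⟨x, hM hx⟩, hx, rfl⟩⟩

/-- conjugate of a subgroup. -/
abbrev cj (g : G) (V : Subgroup G) : Subgroup G := V.map (MulAut.conj g).toMonoidHom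

omit [Finite G] in
theorem mem_cj {g x : G} {V : Subgroup G} : x ∈ cj g V ↔ g⁻¹ * x * g ∈ V := by
  constructor
  · rintro ⟨v, hv, rfl⟩
    have : g⁻¹ * ((MulAut.conj g).toMonoidHom v) * g = v := by
      show g⁻¹ * (g * v * g⁻¹) * g = v
      group
    rw [this]
    exact hv
  · intro h
    refine ⟨_, h, ?_⟩
    show g * (g⁻¹ * x * g) * g⁻¹ = x
    group

omit [Finite G] in
theorem conj_mem_cj {g x : G} {V : Subgroup G} (hx : x ∈ V) : g * x * g⁻¹ ∈ cj g V := ⟨x, hx, rfl⟩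

omit [Finite G] in
theorem card_cj (g : G) (V : Subgroup G) : Nat.card (cj g V) = Nat.card V :=
  card_map_of_injective (MulAut.conj g).injective

omit [Finite G] in
theorem cj_ne_top {g : G} {V : Subgroup G} (h : V ≠ ⊤) : cj g V ≠ ⊤ := by
  intro h1
  apply h
  rw [eq_top_iff]
  intro x _
  have : g * x * g⁻¹ ∈ cj g V := by rw [h1]; trivial
  rw [mem_cj] at this
  have h2 : g⁻¹ * (g * x * g⁻¹) * g = x := by group
  rwa [h2] at this

omit [Finite G] in
theorem cj_cj (g h : G) (V : Subgroup G) : cj g (cj h V) = cj (g * h) V := by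
  ext x
  rw [mem_cj, mem_cj, mem_cj]
  have : h⁻¹ * (g⁻¹ * x * g) * h = (g * h)⁻¹ * x * (g * h) := by group
  rw [this]

omit [Finite G] in
theorem cj_one (V : Subgroup G) : cj 1 V = V := by
  ext x
  rw [mem_cj]
  simp

omit hp in
theorem OO_cj_of_mem {V : Subgroup G} {x : G} (g : G) (hx : x ∈ OO p V) : g * x * g⁻¹ ∈ OO p (cj g V) := by
  have h1 : cj g (OO p V) ≤ OO p (cj g V) := by
    apply le_OO
    · exact map_mono (OO_le V)
    · intro v hv x hx
      rw [mem_cj] at hv hx ⊢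
      have := OO_conj hv hx
      have h2 : g⁻¹ * v * g * (g⁻¹ * x * g) * (g⁻¹ * v * g)⁻¹ = g⁻¹ * (v * x * v⁻¹) * g := by group
      rwa [h2] at this
    · rw [card_cj]
      exact OO_coprime V
  exact h1 (conj_mem_cj hx)

omit hp in
theorem OP_cj_of_mem {V : Subgroup G} {x : G} (g : G) (hx : x ∈ OP p V) : g * x * g⁻¹ ∈ OP p (cj g V) := by
  have h1 : cj g (OP p V) ≤ OP p (cj g V) := by
    apply le_OP
    · exact map_mono (OP_le V)
    · intro v hv x hx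
      rw [mem_cj] at hv hx ⊢
      have := OP_conj hv hx
      have h2 : g⁻¹ * v * g * (g⁻¹ * x * g) * (g⁻¹ * v * g)⁻¹ = g⁻¹ * (v * x * v⁻¹) * g := by group
      rwa [h2] at this
    · rintro _ ⟨y, hy, rfl⟩
      obtain ⟨k, hk⟩ := pow_mem_OO hy
      refine ⟨k, ?_⟩
      have := OO_cj_of_mem g hk
      rwa [← conj_pow] at this
  exact h1 (conj_mem_cj hx)

omit hp in
/-- the star condition for conjugates. -/
theorem star_cj {P A : Subgroup G}
    (hstar : ∀ V : Subgroup G, V ≠ ⊤ → P ≤ V → A ≤ OP p V) (g : G) {V : Subgroup G} (hV : V ≠ ⊤)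
    (hP : ∀ x ∈ P, g * x * g⁻¹ ∈ V) {a : G} (ha : a ∈ A) : g * a * g⁻¹ ∈ OP p V := by
  have h1 := hstar (cj g⁻¹ V) (cj_ne_top hV) (fun x hx => by
    rw [mem_cj, inv_inv]
    exact hP x hx) ha
  have h2 := OP_cj_of_mem g h1
  rwa [cj_cj, mul_inv_cancel, cj_one] at h2

theorem coprime_sup {H N : Subgroup G} (hn : ∀ h ∈ H, ∀ x ∈ N, h * x * h⁻¹ ∈ N)
    (hH : (Nat.card H).Coprime p) (hN : (Nat.card N).Coprime p) :
    (Nat.card (H ⊔ N : Subgroup G)).Coprime p := by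
  have h1 : (N.subgroupOf (H ⊔ N)).Normal := by
    apply Subgroup.normal_subgroupOf_of_le_normalizer
    refine sup_le ?_ le_normalizer
    intro h hh
    rw [mem_normalizer_iff]
    intro x
    refine ⟨hn h hh x, fun hx => ?_⟩
    have := hn h⁻¹ (inv_mem hh) _ hx
    have e : h⁻¹ * (h * x * h⁻¹) * h⁻¹⁻¹ = x := by group
    rwa [e] at this
  have h2 := Solv.card_sup_dvd_of_normal (H.subgroupOf (H ⊔ N)) (N.subgroupOf (H ⊔ N))
  have h3 : H.subgroupOf (H ⊔ N) ⊔ N.subgroupOf (H ⊔ N) = ⊤ := by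
    rw [← subgroupOf_sup le_sup_left le_sup_right, subgroupOf_self]
  rw [h3, card_top, Nat.card_congr (subgroupOfEquivOfLe (le_sup_left : H ≤ H ⊔ N)).toEquiv,
    Nat.card_congr (subgroupOfEquivOfLe (le_sup_right : N ≤ H ⊔ N)).toEquiv] at h2
  exact Nat.Coprime.coprime_dvd_left h2 (Nat.Coprime.mul_left hH hN)

end Cfsg.Agent.H31.PP
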